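import Cfsg.Agent.H15.M24c.C
import Cfsg.Agent.H15.M24c.R
import Cfsg.Agent.H15.M24c.E
import Cfsg.Agent.H15.Tri
import Cfsg.Agent.H15.Big
set_option autoImplicit false
set_option maxRecDepth 100000

namespace Cfsg.Agent.H15.M24c
open Cfsg.Agent.H15 Cfsg.Agent.H14 Cfsg.Agent.H15.Fi24 Subgroup

theorem hc1 : RAll (ccAt F24a.row crow 28 524287 F24u.adj 12) 0 306936 := (RAll.and hck).1
theorem hc2 (x : ℕ) (h : x < 306936) : tr (up F24a.ap crow) [3, 2, 1, 0, 10, 11, 3, 4, 5, 6, 9, 3, 7, 8] (3 * x) % 3 = 2 :=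
  nbeq_iff.mp ((RAll.and hck).2 x (Nat.zero_le _) h)
theorem pk3 : PermOk (up F24a.ap crow) D.inv (3 * 306936) 12 :=
  ⟨by norm_num, pok.invlt, pok.invge, fun X _ hX => allLt_iff.mpr fun l hl => by
    have a := pok.spec (x := X / 3) (by omega) hl
    have b : fld (crow (F24a.ap (X / 3) l)) l = fld (crow (X / 3)) l :=
      (ccAt_spec (hc1 (X / 3) (Nat.zero_le _) (by omega)) l hl).1
    rw [inv_eq] at a
    rw [frc_eq, nble_false.mpr (by have := up_div F24a.ap crow X l; omega), inv_eq]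
    refine nbeq_iff.mpr (eq3 ?_ ?_)
    · rw [up_div, up_div, a.2]
    · rw [up_mod, up_div, up_mod, b]; omega⟩
theorem iv (l : ℕ) : (pk3.perm l)⁻¹ = pk3.perm l := by rw [← pk3.perm_inv, inv_eq]
theorem cox3 {p : List ℕ × ℕ} (hc : coxB F24u.adj 12 p = true) : lprod pk3.perm p.1 ^ p.2 = 1 := by
  obtain ⟨a, ha, h1⟩ := anyLt_iff.mp hc
  rcases Bool.or_eq_true_iff.mp h1 with h2 | h2
  · rw [Bool.and_eq_true] at h2
    rw [eqL_true h2.1, nbeq_iff.mp h2.2, pow_one, lprod_cons, lprod_single]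
    nth_rewrite 1 [← iv]; exact inv_mul_cancel _
  · obtain ⟨b, hb, h3⟩ := anyLt_iff.mp h2
    simp only [Bool.and_eq_true, Nat.blt_eq] at h3
    rw [eqL_true h3.1.2, nbeq_iff.mp h3.2, lprod_cons, lprod_single]
    apply pk3.eq_one
    refine pk3.tab.rel_of_min ha hb (iv a) (iv b) _ fun x hx h4 h5 => pk3.tab.rel_of_pairAt ha hb (iv a) (iv b) hx ?_
    have hx' : x / 3 < 306936 := Nat.div_lt_of_lt_mul hx
    have h6 : x / 3 ≤ F24a.ap (x / 3) a := up_div F24a.ap crow x a ▸ Nat.div_le_div_right h4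
    have h7 : x / 3 ≤ F24a.ap (x / 3) b := up_div F24a.ap crow x b ▸ Nat.div_le_div_right h5
    exact up_pair ((coxAt_spec (hcox _ (Nat.zero_le _) hx') a ha).2 h6 b h3.1.1 hb h7)
      ((ccAt_spec (hc1 _ (Nat.zero_le _) hx') a ha).2 h6 b h3.1.1 hb h7)
theorem tval {l : ℕ} (h : l < 12) (p : Fin (3 * 306936)) : (pk3.perm l p : ℕ) = up F24a.ap crow p l := by
  rw [← iv, PermOk.perm, dif_pos h]; rfl
theorem trv {w : List ℕ} (h : okW 12 w = true) (p : Fin (3 * 306936)) :
    ((lprod pk3.perm w)⁻¹ p : ℕ) = tr (up F24a.ap crow) w p := by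
  induction w generalizing p with
  | nil => rfl
  | cons a w ih =>
    rw [okW_iff, List.forall_mem_cons, ← okW_iff] at h
    rw [lprod_cons, mul_inv_rev, Equiv.Perm.mul_apply, ih h.2, iv, tval h.1, tr_cons]
theorem trd {w : List ℕ} (h : okW 12 w = true) (e : lprod E w = 1) (p : Fin (3 * 306936)) :
    ((lprod pk3.perm w)⁻¹ p : ℕ) / 3 = p / 3 := by
  rw [trv h, tr_div]
  exact (A0.fix_iff h (Nat.div_lt_of_lt_mul p.2)).mp ((congrArg (· • _) e).trans (one_smul _ _))
theorem zT {l : ℕ} (h : l < 12) : zt 306936 * pk3.perm l * zt 306936 = pk3.perm l := Equiv.ext fun p => Fin.ext (by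
  have a : (zt 306936 p : ℕ) / 3 = p / 3 := zt_div 1 p
  have b : (zt 306936 p : ℕ) % 3 = (p + 1) % 3 := by rw [zt_val]; omega
  rw [Equiv.Perm.mul_apply, Equiv.Perm.mul_apply, zt_val, tval h, tval h, up, up, a, b]; omega)
theorem cz {w : List ℕ} (h : okW 12 w = true) : (Even w.length → Commute (lprod pk3.perm w) (zt 306936)) ∧
    (¬ Even w.length → zt 306936 * lprod pk3.perm w * zt 306936 = lprod pk3.perm w) := by
  induction w with
  | nil => simp
  | cons a w ih =>
    rw [okW_iff, List.forall_mem_cons, ← okW_iff] at h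
    rw [List.length_cons, Nat.even_add_one, not_not, lprod_cons]
    refine ⟨fun e => ?_, fun e => by rw [mul_assoc, mul_assoc, ((ih h.2).1 e).eq, ← mul_assoc, ← mul_assoc, zT h.1]⟩
    show _ * _ * _ = _ * (_ * _)
    conv_lhs => rw [← zT h.1]
    conv_rhs => rw [← (ih h.2).2 e]
    simp only [mul_assoc]
theorem r1 : lprod pk3.perm (appL (repL [7, 5, 4, 3, 2, 1, 0] 9) [11]) = 1 := by
  have c : ∀ a b, coxB F24u.adj 12 ([a, b], 2) = true → Commute (pk3.perm a) (pk3.perm b) := fun a b h => by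
    have h := cox3 h
    rwa [lprod_cons, lprod_single, pow_two, mul_eq_one_iff_eq_inv, mul_inv_rev, iv, iv] at h
  have d : ∀ a b, coxB F24u.adj 12 ([a, b], 3) = true →
      pk3.perm a * (pk3.perm b * pk3.perm a) = pk3.perm b * (pk3.perm a * pk3.perm b) := fun a b h => by
    have h := cox3 h
    rw [lprod_cons, lprod_single, show ∀ x y : Equiv.Perm _, (x * y) ^ 3 = x * (y * x) * (y * x * y) from fun x y => by
      simp only [pow_three, mul_assoc], mul_eq_one_iff_eq_inv] at h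
    simpa only [mul_inv_rev, iv] using h
  have a := Tri.mvs_spec (e := pk3.perm) (cm := fun a b => coxB F24u.adj 12 ([a, b], 2) || coxB F24u.adj 12 ([b, a], 2))
    (br := fun a b => coxB F24u.adj 12 ([a, b], 3) || coxB F24u.adj 12 ([b, a], 3))
    (fun a b h => (Bool.or_eq_true_iff.mp h).elim (c a b) fun h => (c b a h).symm)
    (fun a b h => (Bool.or_eq_true_iff.mp h).elim (d a b) fun h => (d b a h).symm)
    (v := invW D.inv (repL [7, 5, 4, 3, 2, 1, 0] 9)) (ps := mvL) (w := repL [7, 5, 4, 3, 2, 1, 0] 9) (by decide +kernel)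
  rw [lprod_invW pk3.perm_inv, eq_inv_iff_mul_eq_one, ← pow_two] at a
  have b : Commute (lprod pk3.perm (repL [7, 5, 4, 3, 2, 1, 0] 9)) (pk3.perm 11) :=
    mem_centralizer_singleton_iff.mp (lprod_mem (K := centralizer {pk3.perm 11}) fun a ha =>
      mem_centralizer_singleton_iff.mpr (c a 11 ((by decide +kernel : ∀ a ∈ repL [7, 5, 4, 3, 2, 1, 0] 9,
        coxB F24u.adj 12 ([a, 11], 2) = true) a ha)))
  have g := gauge ((cz (w := appL (repL [7, 5, 4, 3, 2, 1, 0] 9) [11]) (by decide +kernel)).1 (by decide +kernel)).inv_left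
    (trd (by decide +kernel) (trivW_sound good.hi good.hB (by decide +kernel)))
  have e : pk3.perm 11 ^ 2 = 1 := by rw [pow_two]; nth_rewrite 1 [← iv]; exact inv_mul_cancel _
  rw [inv_pow, inv_eq_one, pow_succ, lprod_appL, lprod_single, b.mul_pow, a, e, one_mul, one_mul] at g
  rw [lprod_appL, lprod_single, g]
theorem r2 : lprod pk3.perm [3, 2, 1, 0, 10, 11, 3, 4, 5, 6, 9, 3, 7, 8] ^ 17 = zt 306936 ^ 17 := by
  have c := ((cz (w := [3, 2, 1, 0, 10, 11, 3, 4, 5, 6, 9, 3, 7, 8]) (by decide +kernel)).1 (by decide +kernel)).inv_left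
  have g := gauge0 ((Commute.refl _).mul_left c) 17 (fun p => by
    rw [c.symm.mul_pow, Equiv.Perm.mul_apply, zt_div, inv_pow, ← lprod_repL]
    exact trd (by decide +kernel) (trivW_sound good.hi good.hB (by decide +kernel)) p) (fun p h => by
    have := hc2 (p / 3) (Nat.div_lt_of_lt_mul p.2)
    rw [show 3 * ((p : ℕ) / 3) = p by omega, ← trv (by decide +kernel)] at this
    rw [Equiv.Perm.mul_apply, zt_val]; omega)
  rwa [c.symm.mul_pow, inv_pow, mul_inv_eq_one, eq_comm] at g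

/-- the normaliser of the translations -/
abbrev NZ : Subgroup (Equiv.Perm (Fin (3 * 306936))) := normalizer (zpowers (zt 306936) : Set _)
/-- the translations -/
abbrev ZZ : Subgroup NZ := (zpowers (zt 306936)).subgroupOf NZ
theorem memN (l : ℕ) : pk3.perm l ∈ NZ := by
  by_cases h : l < 12
  · refine mem_normalizer_fintype ?_
    rintro _ ⟨k, rfl⟩
    rw [← conj_zpow, show pk3.perm l * zt 306936 * (pk3.perm l)⁻¹ = (zt 306936)⁻¹ by
      rw [mul_inv_eq_iff_eq_mul, eq_inv_mul_iff_mul_eq, ← mul_assoc, zT h]]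
    exact zpow_mem (inv_mem (mem_zpowers _)) k
  · rw [PermOk.perm, dif_neg h]; exact one_mem _
/-- the lifted generators -/
noncomputable def eN (l : ℕ) : NZ := ⟨pk3.perm l, memN l⟩
theorem valN (w : List ℕ) : (lprod eN w : NZ) = lprod pk3.perm w := map_lprod NZ.subtype w
theorem mkN (w : List ℕ) : lprod (fun l => (eN l : NZ ⧸ ZZ)) w = (lprod eN w : NZ) := (map_lprod (QuotientGroup.mk' ZZ) w).symm
theorem cenN {w : List ℕ} (h : okW 12 w = true) (e : Even w.length) : lprod eN w ∈ centralizer (ZZ : Set NZ) := by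
  rintro ⟨_, _⟩ ⟨k, rfl⟩
  exact Subtype.ext (by rw [coe_mul, coe_mul, valN]; exact (((cz h).1 e).zpow_right k).symm)
theorem exθ : ∃ θ : G →* NZ ⧸ ZZ, ∀ l < 12, θ (E l) = eN l := by
  have hi : ∀ l, (eN (D.inv l) : NZ ⧸ ZZ) = (eN l : NZ ⧸ ZZ)⁻¹ := fun l =>
    congrArg QuotientGroup.mk (Subtype.ext (pk3.perm_inv l) : eN (D.inv l) = (eN l)⁻¹)
  have q : ∀ w k, lprod pk3.perm w ^ k ∈ zpowers (zt 306936) → lprod (fun l => (eN l : NZ ⧸ ZZ)) w ^ k = 1 := fun w k h => by
    rw [mkN, ← QuotientGroup.mk_pow, QuotientGroup.eq_one_iff, mem_subgroupOf, coe_pow, valN]; exact h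
  have hB : ∀ p ∈ [(appL (repL [7, 5, 4, 3, 2, 1, 0] 9) [11], 1), ([3, 2, 1, 0, 10, 11, 3, 4, 5, 6, 9, 3, 7, 8], 17)],
      lprod (fun l => (eN l : NZ ⧸ ZZ)) p.1 ^ p.2 = 1 := by
    simp only [List.forall_mem_cons]
    exact ⟨q _ _ (by rw [r1, one_pow]; exact one_mem _), q _ _ (by rw [r2]; exact npow_mem_zpowers _ _), List.forall_mem_nil _⟩
  refine good.exists_hom hi fun p hp => ?_
  rcases Bool.or_eq_true_iff.mp (allL_iff.mp (show allL D.B (fun p => coxB F24u.adj 12 p ||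
    trivW D.inv [(appL (repL [7, 5, 4, 3, 2, 1, 0] 9) [11], 1), ([3, 2, 1, 0, 10, 11, 3, 4, 5, 6, 9, 3, 7, 8], 17)]
      (repL p.1 p.2)) = true by decide +kernel) p hp) with h | h
  · exact q _ _ (by rw [cox3 h]; exact one_mem _)
  · rw [← lprod_repL]; exact trivW_sound hi hB h

theorem par {w : List ℕ} (h : okW 12 w = true) : lprod E w ∈ commutator G ↔ Even w.length := by
  induction w with
  | nil => simp
  | cons a w ih =>
    rw [okW_iff, List.forall_mem_cons, ← okW_iff] at h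
    have := (mul_mem_iff_of_index_two index_commutator).mp (conj_mul_mem_commutator (cj a h.1) (E_sq 11))
    rw [lprod_cons, mul_mem_iff_of_index_two index_commutator, ih h.2, List.length_cons, Nat.even_add_one, this,
      iff_false_intro not_mem_commutator, false_iff]

theorem low : ∃ (Γ : Type) (_ : Group Γ) (σ : Γ →* commutator G), IsStemExtension σ ∧
    Nonempty (σ.ker ≃* Multiplicative (ZMod 3)) := by
  obtain ⟨θ, hθ⟩ := exθ
  have a : ∀ w, okW 12 w = true → ((lprod eN w : NZ) : NZ ⧸ ZZ) = θ (lprod E w) := fun w h => by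
    rw [← mkN, map_lprod, ← lprod_cut h, ← lprod_cut (E := fun l => θ (E l)) h]
    congr 1; funext l
    by_cases c : l < 12
    · rw [cut_lt c, cut_lt c, hθ l c]
    · rw [cut_ge (not_lt.mp c), cut_ge (not_lt.mp c)]
  refine Tri.cover ZZ ?_ θ _ ?_ (a := ⟨_, (par (w := [10, 11]) rfl).mpr (by decide)⟩)
    (b := ⟨_, (par (w := tW) (by decide +kernel)).mpr (by decide +kernel)⟩) (cenN (w := [10, 11]) rfl (by decide))
    (cenN (w := tW) (by decide +kernel) (by decide +kernel)) (a _ rfl) (a _ (by decide +kernel))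
    (Subtype.ext (base0.comm (u := [10, 11]) (v := tW) (by decide +kernel))) fun h => ?_
  · rw [Nat.card_congr (subgroupOfEquivOfLe le_normalizer).toEquiv, Nat.card_zpowers]
    exact orderOf_dvd_of_pow_eq_one (zt3 _)
  · refine commutator_le_of_gens (N := ((centralizer (ZZ : Set NZ)).map (QuotientGroup.mk' ZZ)).comap θ) top
      ((Normal.map inferInstance _ (QuotientGroup.mk'_surjective _)).comap θ) (E_sq 11) fun w hw => ?_
    have b := (by decide +kernel : ∀ w ∈ all, okW 12 (appL w [11]) = true ∧ Even (appL w [11]).length) w hw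
    rw [← lprod_single (E := E), ← lprod_appL]
    exact ⟨_, cenN b.1 b.2, a _ b.1⟩
  · have := congrArg Subtype.val h.eq
    rw [coe_mul, coe_mul, valN, valN, ← lprod_appL, ← lprod_appL] at this
    exact pk3.tab.ne_of_neAt (x := 0) (by decide +kernel) this

end Cfsg.Agent.H15.M24c
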