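import Cfsg.Agent.H15.M24c.L
import Cfsg.Agent.H15.M24c.F
import Cfsg.Agent.H15.M24c.E0
import Cfsg.Agent.H15.M24c.E1
import Cfsg.Agent.H15.M24c.E2
import Cfsg.Agent.S2054
set_option autoImplicit false
set_option maxRecDepth 100000

namespace Cfsg.Agent.H15.M24c
open Cfsg.Agent.H15 Cfsg.Agent.H14 Cfsg.Agent.H15.Fi24 Cfsg.Agent.H15.Tri Subgroup MulAction

theorem inj_of {T X Γ : Type} [Group T] [MulAction T X] [Group Γ] {σ : Γ →* T} (hσ : IsStemExtension σ) {p : X}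
    (h : HasCyclicSchurMultiplier (stabilizer T p) 1) : Inj σ p := fun x hx e => by
  have a := H27.mult_eq_bot_of_trivial h (ξ := σ.subgroupComap (stabilizer T p))
    ⟨σ.subgroupComap_surjective_of_surjective _ hσ.1, fun z hz => mem_center_iff.mpr fun w =>
      Subtype.ext (mem_center_iff.mp (hσ.2.1 (congrArg Subtype.val hz)) w)⟩
  rw [Fh, ← map_subtype_commutator] at hx
  obtain ⟨z, b, rfl⟩ := hx
  exact congrArg Subtype.val (a.le ⟨Subtype.ext e, b⟩)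

theorem rk_spec {ap : ℕ → ℕ → ℕ} {rt : ℕ → ℕ} {rs : List ℕ} {n : ℕ} (hn : ∀ x < n, ∀ b < 10, ap x b < n)
    (h : RAll (rkAt ap rt rs) 0 n) (P : ℕ → Prop) (h0 : ∀ r ∈ rs, P r)
    (h1 : ∀ x < n, ∀ b < 10, 1 ≤ b → P (ap x b) → P x) (x : ℕ) (hx : x < n) : P x := by
  induction hk : Nat.shiftRight (rt x) 4 using Nat.strong_induction_on generalizing x with
  | _ k ih =>
    have a := h x (Nat.zero_le _) hx
    simp only [rkAt, frc_eq] at a
    cases b : Nat.beq (Nat.shiftRight (rt x) 4) 0 <;> rw [b] at a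
    · cases c : Nat.ble 1 (Nat.land (rt x) 15) <;> rw [c] at a
      · exact absurd a (by simp)
      cases d : Nat.blt (Nat.land (rt x) 15) 10 <;> rw [d] at a
      · exact absurd a (by simp)
      exact h1 x hx _ (Nat.blt_eq.mp d) (nble_iff.mp c) (ih _ (hk ▸ Nat.blt_eq.mp a) _ (hn x hx _ (Nat.blt_eq.mp d)) rfl)
    · obtain ⟨r, hr, e⟩ := anyL_iff.mp a
      exact nbeq_iff.mp e ▸ h0 r hr

/-- the simple group -/
abbrev S : Subgroup G := commutator G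
/-- even words -/
abbrev Ok (w : List ℕ) : Prop := okW 12 w = true ∧ Even w.length
/-- the value of an even word -/
noncomputable def ev (w : List ℕ) (h : Ok w := by decide +kernel) : S := ⟨lprod E w, (par h.1).mpr h.2⟩
theorem evs {w : List ℕ} {h : Ok w} {x y : ℕ} (e : x < 306936 ∧ tr F24a.ap w x = y) : (ev w h)⁻¹ • A0.c x = A0.c y :=
  e.2 ▸ (A0.tr_spec h.1 e.1).2
theorem evf {w : List ℕ} {h : Ok w} {x : ℕ} (e : x < 306936 ∧ tr F24a.ap w x = x) : ev w h • A0.c x = A0.c x :=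
  (inv_smul_eq_iff.mp (evs e)).symm
theorem st0 {g : G} (h : g • A0.c 0 = A0.c 0) : g ∈ gp E hs := stab0.1.ge h
theorem l0 : E 11 • A0.c 0 = A0.c 0 := stab0.1.le (by simpa using mem_gp (E := E) (ws := hs) (w := [11]) (by decide))
theorem lfix {d : Via φ} (h : d ∈ A0.seg 1 31672) : E 11 • d = d := by
  obtain ⟨g, rfl⟩ := seg1 h
  have a : lprod E [11] • A0.c 1 = A0.c 1 := (A0.fix_iff (by decide +kernel) (by decide +kernel)).mpr (by decide +kernel)
  rw [lprod_single] at a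
  show E 11 • (g : G) • A0.c 1 = (g : G) • A0.c 1
  rw [← mul_smul, ← mem_centralizer_singleton_iff.mp (hs_le g.2), mul_smul, a]
theorem odd {g m : G} (h : m ∉ S) : g ∈ S ∨ m * g ∈ S :=
  (em _).imp_right fun a => (mul_mem_iff_of_index_two index_commutator).mpr (iff_of_false h a)
theorem sub {K : Subgroup G} (hK : K ≤ S) {g : G} (hg : g ∈ S) (h : g ∈ K ∨ g * E 11 ∈ K) : g ∈ K :=
  h.resolve_right fun a => not_mem_commutator ((mul_mem_cancel_left hg).mp (hK a))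

theorem exe : Nonempty (Spor.Fi23 ≃* stabilizer S (A0.c 0)) := by
  obtain ⟨ψ, h1, h2⟩ := exists_f23
  have a : ψ.range ≤ S ⊓ gp E hs := by
    rw [MonoidHom.range_eq_map, ← Fi23.top, map_le_iff_le_comap]
    refine gp_le.mpr fun w hw => ?_
    obtain ⟨i, hi, rfl, b⟩ := (by decide +kernel : ∀ w ∈ Fi23.all, ∃ i < 10, w = [i] ∧ Ok [i, 11] ∧ subW [[i, 11]] hs = true) w hw
    rw [mem_comap, lprod_single, h2 i hi, ← lprod_single (E := E) 11, ← lprod_cons]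
    exact ⟨(ev _ b.1).2, gp_mono b.2 (mem_gp (by simp))⟩
  refine ⟨MulEquiv.ofBijective ((ψ.codRestrict S fun g => (a ⟨g, rfl⟩).1).codRestrict (stabilizer S (A0.c 0))
    fun g => stab0.1.le (a ⟨g, rfl⟩).2) ⟨fun x y e => h1 (congrArg (fun t => (t.1.1 : G)) e), fun g => ?_⟩⟩
  obtain ⟨x, e⟩ := sub (a.trans inf_le_left) g.1.2 (par2 (E_sq 11) ((a.trans inf_le_right).trans hs_le) (fun w hw => .inr (by
    obtain ⟨i, hi, rfl⟩ | rfl := (by decide +kernel : ∀ w ∈ hs, (∃ i < 10, w = [i]) ∨ w = [11]) w hw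
    · exact ⟨_, by rw [h2 i hi, lprod_single]⟩
    · rw [lprod_single, E_sq]; exact one_mem _)) (st0 g.2))
  exact ⟨x, Subtype.ext (Subtype.ext e)⟩

theorem f0 : Pf S (A0.c 0) (A0.c 0) := by
  obtain ⟨e⟩ := exe
  have := Fi23.simple
  have a : commutator Spor.Fi23 = ⊤ := (IsSimpleGroup.eq_bot_or_eq_top_of_normal _ inferInstance).resolve_left fun h =>
    bot_ne_top ((center_eq_bot_of_simple (by rw [Fi23.card]; norm_num)).symm.trans ((commutator_eq_bot_iff_center_eq_top _).mp h))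
  have b := map_commutator_eq (G := Spor.Fi23) e.toMonoidHom
  rw [a, ← MonoidHom.range_eq_map, MonoidHom.range_eq_top.mpr e.surjective, ← _root_.commutator_def] at b
  rw [Pf, inf_idem, ← map_subtype_commutator, ← b, ← MonoidHom.range_eq_map, range_subtype]

theorem memP {g : G} (h0 : g • A0.c 0 = A0.c 0) (h1 : g • A0.c 1 = A0.c 1) : g ∈ gp E ([11] :: lowvS2) := by
  have a := ((A0.lower_nil ⊥).seg (a := 1) (b := 31672) (by norm_num) (by decide +kernel) seg1 bot_le bot_le).card_inf_le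
    (r := 258247006617600) (by norm_num) (by rw [card_hs])
  have b : gp E lowvT2 ≤ gp E hs ⊓ A0.fx [1] := le_inf (gp_mono (by decide +kernel))
    (le_inf (A0.gp_le_stabilizer (by decide +kernel) (by decide +kernel) (by decide +kernel)) le_top)
  exact gp_mono (by decide +kernel) ((eq_of_le_of_card_ge b (a.trans lowv2.le_card)).ge ⟨st0 h0, h1, trivial⟩)

theorem f1 : Pf S (A0.c 0) (A0.c 1) := fun x hx => by
  let P := stabilizer S (A0.c 0) ⊓ stabilizer S (A0.c 1)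
  have a : gp E eG ≤ ⁅P, P⁆.map S.subtype := gp_le.mpr fun w hw => by
    have b := (by decide +kernel : ∀ w ∈ eG, (∀ i < 2, Ok [w.getD i 0, 11] ∧ ∀ x < 2, x < 306936 ∧ tr F24a.ap [w.getD i 0, 11] x = x) ∧
      eqOn A0.ap A0.L bs w (appL (appL [w.getD 1 0, 11] [w.getD 0 0, 11]) (invW D.inv (appL [w.getD 0 0, 11] [w.getD 1 0, 11]))) = true) w hw
    have c : ∀ i (h : i < 2), ev _ (b.1 i h).1 ∈ P := fun i h => ⟨evf ((b.1 i h).2 0 two_pos), evf ((b.1 i h).2 1 one_lt_two)⟩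
    refine ⟨_, commutator_mem_commutator (c 1 one_lt_two) (c 0 two_pos), Eq.trans ?_ (base0.eq b.2).symm⟩
    show _ = lprod E _
    rw [lprod_appL, lprod_appL, lprod_invW good.hi, lprod_appL, mul_inv_rev, ← mul_assoc]; rfl
  obtain ⟨z, b, e⟩ := sub (K := ⁅P, P⁆.map S.subtype) (map_subtype_le _) x.2 (par2 (E_sq 11) (by
    rintro _ ⟨z, b, rfl⟩
    exact stab_le ((commutator_le.mpr fun _ a _ b => mul_mem (mul_mem (mul_mem a b) (inv_mem a)) (inv_mem b) :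
      ⁅P, P⁆ ≤ P) b).1) (fun w hw => .inr (by
      obtain ⟨i, -, rfl, b⟩ | rfl := (by decide +kernel : ∀ w ∈ [11] :: lowvS2, (∃ i ∈ List.range 9, w = [i] ∧
        eqOn A0.ap A0.L bs [i, 11] (subst (nthW eG) (nthW xG i)) = true) ∨ w = [11]) w hw
      · have c : lprod E _ = lprod E _ := base0.eq b
        rw [lprod_cons, lprod_single, lprod_subst] at c
        rw [lprod_single, c]
        exact lprod_mem fun j _ => a (nthW_mem eG j)
      · rw [lprod_single, E_sq]; exact one_mem _)) (memP hx.1 hx.2))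
  exact Subtype.ext e ▸ b

theorem cenk {μ : G} (h0 : μ • A0.c 0 = A0.c 0) (h1 : μ • A0.c 31674 = A0.c 31674) : μ * E 10 = E 10 * μ := by
  have a : (lprod E [10, 11])⁻¹ • A0.c 0 = A0.c 31674 := evs (w := [10, 11]) (h := by decide +kernel) (by decide +kernel)
  have b := mem_centralizer_singleton_iff.mp (stab_le (show (lprod E [10, 11] * μ * (lprod E [10, 11])⁻¹) • A0.c 0 = A0.c 0 by
    rw [mul_smul, mul_smul, a, h1, ← a, smul_inv_smul]))
  have c : lprod E _ = lprod E _ := base0.eq (u := [10]) (v := appL (invW D.inv [10, 11]) (11 :: [10, 11])) (by decide +kernel)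
  rw [lprod_single, lprod_appL, lprod_invW good.hi, lprod_cons (a := 11)] at c
  rw [c]
  generalize lprod E [10, 11] = t at b
  calc μ * (t⁻¹ * (E 11 * t)) = t⁻¹ * (t * μ * t⁻¹ * E 11) * t := by group
    _ = _ := by rw [b]; group

theorem sg {g : S} (h : g • A0.c 0 = A0.c 0) {d : Via φ} : g • d ∈ A0.seg 1 31672 ↔ d ∈ A0.seg 1 31672 :=
  ⟨fun a => inv_smul_smul g d ▸ inv1 _ (inv_mem (st0 h)) _ a, inv1 _ (st0 h) _⟩
theorem s0 : (ev sW)⁻¹ • A0.c 0 = A0.c 1 := evs (by decide +kernel)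
theorem s1 : (ev sW)⁻¹ • A0.c 1 = A0.c 0 := evs (by decide +kernel)
theorem cjs {g : S} {a b : Via φ} (h : g • a = b) : ((ev sW)⁻¹ * g * ev sW) • (ev sW)⁻¹ • a = (ev sW)⁻¹ • b := by
  rw [mul_smul, smul_inv_smul, mul_smul, h]
theorem orbP {a b x : ℕ} (hb : b ≤ 306936) (h : RAll (connAt F24a.ap g9 a) (a + 1) b) (h1 : a ≤ x) (h2 : x < b) :
    ∃ p : S, p • A0.c 0 = A0.c 0 ∧ p • A0.c 1 = A0.c 1 ∧ p • (ev sW)⁻¹ • A0.c a = (ev sW)⁻¹ • A0.c x := by
  obtain ⟨⟨_, p, hp, rfl⟩, e⟩ := A0.seg_subset_orbit (S := g9) (by decide +kernel)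
    (K := (stabilizer S (A0.c 0) ⊓ stabilizer S (A0.c 1)).map S.subtype) (gp_le.mpr fun w hw => by
      have b := (by decide +kernel : ∀ w ∈ g9, Ok w ∧ ∀ x < 2, x < 306936 ∧ tr F24a.ap w x = x) w hw
      exact ⟨ev w b.1, ⟨evf (b.2 0 two_pos), evf (b.2 1 one_lt_two)⟩, rfl⟩) hb h ⟨x, ⟨h1, h2⟩, rfl⟩
  exact ⟨_, s1 ▸ cjs hp.2, s0 ▸ cjs hp.1, cjs e⟩
theorem tri {u : S} (h : u • A0.c 1 = A0.c 1) : u • A0.c 0 = A0.c 0 ∨
    (∃ p : S, p • A0.c 0 = A0.c 0 ∧ p • A0.c 1 = A0.c 1 ∧ p • A0.c 2 = u • A0.c 0) ∨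
    ∃ p : S, p • A0.c 0 = A0.c 0 ∧ p • A0.c 1 = A0.c 1 ∧ p • A0.c 31674 = u • A0.c 0 := by
  obtain ⟨x, ⟨a, b⟩, e⟩ := (sg (g := ev sW * u * (ev sW)⁻¹) (by rw [mul_smul, mul_smul, s0, h, ← s0, smul_inv_smul])).mpr
    (⟨1, by norm_num, rfl⟩ : A0.c 1 ∈ A0.seg 1 31672)
  rw [mul_smul, mul_smul, s1, ← inv_smul_eq_iff] at e
  rw [← e]
  by_cases c : x < 3512
  · by_cases d : x = 1
    · exact .inl (d ▸ s1)
    · have := orbP (by norm_num) cn2 (by omega) c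
      rw [show (ev sW)⁻¹ • A0.c 2 = A0.c 2 from evs (by decide +kernel)] at this
      exact .inr (.inl this)
  · obtain ⟨p, p0, p1, p2⟩ := orbP (by norm_num) cn3 (not_lt.mp c) b
    obtain ⟨q, q0, q1, q2⟩ := orbP (x := 3522) (by norm_num) cn3 (by norm_num) (by norm_num)
    rw [show (ev sW)⁻¹ • A0.c 3522 = A0.c 31674 from evs (by decide +kernel)] at q2
    exact .inr (.inr ⟨p * q⁻¹, by rw [mul_smul, inv_smul_eq_iff.mpr q0.symm, p0], by rw [mul_smul, inv_smul_eq_iff.mpr q1.symm, p1],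
      by rw [mul_smul, ← q2, inv_smul_smul, p2]⟩)

theorem cov (x : ℕ) (hx : x < 306936) : ∃ μ : G, μ • A0.c 0 = A0.c 0 ∧ μ • A0.c 31674 = A0.c 31674 ∧
    ∃ d ∈ A0.seg 1 31672, μ • A0.c x = (ev sW)⁻¹ • d := by
  refine rk_spec (fun x h b e => A0.lt x h b (e.trans (by decide +kernel))) (hrk0.append (hrk1.append hrk2))
    (fun x => ∃ μ : G, μ • A0.c 0 = A0.c 0 ∧ μ • A0.c 31674 = A0.c 31674 ∧ ∃ d ∈ A0.seg 1 31672, μ • A0.c x = (ev sW)⁻¹ • d)
    (fun r hr => ?_) (fun x h b e1 e2 ⟨μ, a0, a1, d, a2, a3⟩ => ?_) x hx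
  · obtain ⟨p, -, rfl, a, b, c, d⟩ := (by decide +kernel : ∀ r ∈ rts, ∃ p ∈ rtd, r = p.1 ∧ Ok p.2.1 ∧
      (∀ x ∈ [0, 31674], x < 306936 ∧ tr F24a.ap p.2.1 x = x) ∧ (1 ≤ p.2.2 ∧ p.2.2 < 31672) ∧
      p.1 < 306936 ∧ tr F24a.ap p.2.1 p.1 = tr F24a.ap sW p.2.2) r hr
    exact ⟨((ev _ a)⁻¹ : S), evs (b 0 (by simp)), evs (b 31674 (by simp)), _, ⟨_, c, rfl⟩,
      (evs d).trans (evs ⟨by omega, rfl⟩).symm⟩
  · have c := (by decide +kernel : ∀ b < 10, 1 ≤ b → A0.ap 0 b = 0 ∧ A0.ap 31674 b = 31674) b e1 e2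
    have f : b < A0.L := e1.trans (by decide +kernel)
    exact ⟨μ * (A0.e b)⁻¹, by rw [mul_smul, A0.act 0 (by decide +kernel) b f, c.1, a0],
      by rw [mul_smul, A0.act 31674 (by decide +kernel) b f, c.2, a1], d, a2, by rw [mul_smul, A0.act x h b f]; exact a3⟩

theorem up3 (Γ : Type) [Group Γ] [Finite Γ] (σ : Γ →* S) (hσ : IsStemExtension σ) : Nat.card σ.ker ≤ 3 := by
  have c0 : Pf S (A0.c 0) (A0.c 1826) := by
    have := f1.cj (ev wc)⁻¹
    rwa [evs (y := 0) (by decide +kernel), evs (y := 1826) (by decide +kernel)] at this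
  have c2 : Pf S (A0.c 0) (A0.c 2) := by
    have := f1.cj (ev w2)⁻¹
    rwa [evs (y := 0) (by decide +kernel), evs (y := 2) (by decide +kernel)] at this
  have t0 : (ev tW)⁻¹ • A0.c 0 = A0.c 0 := evs (by decide +kernel)
  have t1 : (ev tW)⁻¹ • A0.c 31674 = A0.c 31674 := evs (by decide +kernel)
  have t2 : (ev tW)⁻¹ • A0.c 1 = A0.c 23904 := evs (by decide +kernel)
  have t3 : (ev tW)⁻¹ • A0.c 23904 = A0.c 22493 := evs (by decide +kernel)
  refine bound hσ (p1 := A0.c 1) (c := A0.c 1826) (κ := A0.c 31674) (s := (ev sW)⁻¹) (y := ev [10, 11]) (τ := (ev tW)⁻¹)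
    (inj_of hσ (exe.elim (H27.hasSchurMultiplier_of_mulEquiv S2054.result))) f0 f1 s0 s1 (evf (by decide +kernel))
    (evs (by decide +kernel)) (evf (by decide +kernel)) (fun μ a b => Subtype.ext ?_) c0 ?_ ⟨(ev w0c)⁻¹, evs (by decide +kernel)⟩
    t0 t1 (by rw [pow_three, mul_smul, mul_smul, t2, t3]; exact evs (by decide +kernel)) (fun R h1 h2 μ a b => ?_)
    (fun u v f hu hv hf e => ?_) (fun g => ?_) fun K h1 h2 => ?_
  · show lprod E [10, 11] * μ = μ * lprod E [10, 11]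
    rw [lprod_cons, lprod_single, ← mul_assoc, cenk a b, mul_assoc, mul_assoc, mem_centralizer_singleton_iff.mp (stab_le a)]
  · have := c0.cj (ev sW)⁻¹
    rwa [s0, evs (y := 1826) (by decide +kernel)] at this
  · obtain ⟨U, hU, k⟩ := orbsF_spec (fun j => j < 306936 ∧ ∃ r ∈ R, r • A0.c 0 = A0.c 0 ∧ r • A0.c 31674 = A0.c 31674 ∧
      r • A0.c 1 = A0.c j) (fun j ⟨hj, r, r0, r1, r2, r3⟩ f hf => by
        obtain ⟨w, hw, rfl⟩ := List.mem_map.mp hf
        obtain ⟨c, d0, d1, d⟩ := (by decide +kernel : ∀ w ∈ nG, Ok w ∧ (0 < 306936 ∧ tr F24a.ap w 0 = 0) ∧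
          (31674 < 306936 ∧ tr F24a.ap w 31674 = 31674) ∧
          ((1 < 306936 ∧ tr F24a.ap w 1 = 1) ∨ (1826 < 306936 ∧ tr F24a.ap w 1826 = 1826))) w hw
        exact ⟨(A0.tr_spec c.1 hj).1, (ev w c)⁻¹ * r, mul_mem (h1 _ (evs d0) (evs d1) (d.imp evs evs)) r0,
          by rw [mul_smul, r1, evs d0], by rw [mul_smul, r2, evs d1], by rw [mul_smul, r3, evs ⟨hj, rfl⟩]⟩)
      _ 0 (by
        simp only [List.forall_mem_cons]
        exact ⟨⟨by norm_num, 1, one_mem _, one_smul _ _, one_smul _ _, one_smul _ _⟩, ⟨by norm_num, _, h2, t0, t1, t2⟩,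
          ⟨by norm_num, _, mul_mem h2 h2, by rw [mul_smul, t0, t0], by rw [mul_smul, t1, t1], by rw [mul_smul, t2, t3]⟩,
          List.forall_mem_nil _⟩) (by simp) orbk
    obtain ⟨x, ⟨x1, x2⟩, e⟩ := (sg a).mpr (⟨1, by norm_num, rfl⟩ : A0.c 1 ∈ A0.seg 1 31672)
    have x3 : x < A0.n := x2.trans (by decide +kernel)
    have c : F24a.ap x 10 = x := A0.inj _ (A0.lt x x3 10 (by decide +kernel)) _ x3 (by
      have d := A0.act 1 (by decide +kernel) 10 (by decide +kernel)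
      rw [show A0.ap 1 10 = 1 by decide +kernel, inv_smul_eq_iff] at d
      refine (A0.act x x3 10 (by decide +kernel)).symm.trans (inv_smul_eq_iff.mpr ?_)
      rw [e]
      show (μ : G) • A0.c 1 = E 10 • (μ : G) • A0.c 1
      rw [← mul_smul, ← cenk a b, mul_smul]
      exact congrArg _ d)
    have d := RAll.of k x x1 x2
    rw [c, Nat.beq_refl, Bool.not_true, Bool.false_or, tb_eq] at d
    obtain ⟨-, r, r0, r1, r2, r3⟩ := hU x d
    exact (mul_mem_cancel_left (inv_mem r0)).mp (h1 _ (by rw [mul_smul, a, inv_smul_eq_iff, r1])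
      (by rw [mul_smul, b, inv_smul_eq_iff, r2]) (.inl (by rw [mul_smul, inv_smul_eq_iff, r3, e])))
  · have n : ∀ x < 306936, ∀ p : S, p • A0.c 0 = A0.c 0 → (p • A0.c x ∈ A0.seg 1 31672 ↔ 1 ≤ x ∧ x < 31672) := fun x a p b =>
      (sg b).trans (A0.mem_seg (by decide +kernel) a)
    have k : ∀ p : S, p • A0.c 0 = A0.c 0 → p • A0.c 31674 ≠ A0.c 0 := fun p a b =>
      absurd (A0.inj _ (by decide +kernel) _ (by decide +kernel) (smul_left_cancel p (b.trans a.symm))) (by norm_num)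
    have m : u • A0.c 0 ∈ A0.seg 1 31672 ↔ v • A0.c 0 ∈ A0.seg 1 31672 := e ▸ sg hf
    have m0 := n 0 (by norm_num) 1 (one_smul _ _)
    rw [one_smul] at m0
    rcases tri hu with a | ⟨p, p0, p1, p2⟩ | ⟨p, p0, p1, p2⟩
    · exact .inl ⟨a.symm ▸ f0, 1, one_smul _ _, one_smul _ _, by rw [one_smul, a, smul_left_cancel f (e.trans (a.trans hf.symm))]⟩
    · rcases tri hv with b | ⟨q, q0, q1, q2⟩ | ⟨q, q0, q1, q2⟩
      · rw [← p2, b, n 2 (by norm_num) p p0, m0] at m; norm_num at m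
      · refine .inl ⟨p2 ▸ p0 ▸ c2.cj p, q * p⁻¹, by rw [mul_smul, inv_smul_eq_iff.mpr p0.symm, q0],
          by rw [mul_smul, inv_smul_eq_iff.mpr p1.symm, q1], by rw [mul_smul, ← p2, inv_smul_smul, q2]⟩
      · rw [← p2, ← q2, n 2 (by norm_num) p p0, n 31674 (by norm_num) q q0] at m; norm_num at m
    · rcases tri hv with b | ⟨q, q0, q1, q2⟩ | b
      · exact absurd (by rw [p2, ← e, b, hf]) (k p p0)
      · rw [← p2, ← q2, n 31674 (by norm_num) p p0, n 2 (by norm_num) q q0] at m; norm_num at m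
      · exact .inr ⟨⟨p, p0, p1, p2⟩, b⟩
  · obtain ⟨x, hx, e⟩ := full0 (g • A0.c 0)
    obtain ⟨μ, a0, a1, d, a2, a3⟩ := cov x hx
    obtain ⟨⟨h, b⟩, rfl⟩ := seg1 a2
    have b0 : h • A0.c 0 = A0.c 0 := stab0.1.le b
    obtain ⟨h', c0, c1⟩ : ∃ h' : S, h' • A0.c 0 = A0.c 0 ∧ h' • A0.c 1 = h • A0.c 1 := (odd (g := h) not_mem_commutator).elim
      (fun c => ⟨⟨h, c⟩, b0, rfl⟩) fun c => ⟨⟨_, c⟩, (mul_smul _ _ _).trans ((congrArg _ b0).trans l0), (mul_smul _ _ _).trans (lfix a2)⟩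
    have m : ∀ d ∈ A0.seg 1 31672, ((lprod E sW)⁻¹ * E 11 * lprod E sW) • (ev sW)⁻¹ • d = (ev sW)⁻¹ • d := fun d c => by
      show _ • (lprod E sW)⁻¹ • d = (lprod E sW)⁻¹ • d
      rw [mul_smul, smul_inv_smul, mul_smul, lfix c]
    have m0 := m _ ⟨1, by norm_num, rfl⟩
    have m1 := m _ ⟨3522, by norm_num, rfl⟩
    rw [s1] at m0
    rw [show (ev sW)⁻¹ • A0.c 3522 = A0.c 31674 from evs (by decide +kernel)] at m1
    obtain ⟨μ', d0, d1, d2⟩ : ∃ μ' : S, μ' • A0.c 0 = A0.c 0 ∧ μ' • A0.c 31674 = A0.c 31674 ∧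
        μ' • A0.c x = (ev sW)⁻¹ • h • A0.c 1 := (odd (g := μ) (m := (lprod E sW)⁻¹ * E 11 * lprod E sW) fun c =>
          not_mem_commutator ((mul_mem_cancel_left (inv_mem (ev sW).2)).mp ((mul_mem_cancel_right (ev sW).2).mp c))).elim
      (fun c => ⟨⟨μ, c⟩, a0, a1, a3⟩) fun c => ⟨⟨_, c⟩, (mul_smul _ _ _).trans ((congrArg _ a0).trans m0), (mul_smul _ _ _).trans ((congrArg _ a1).trans m1),
        (mul_smul _ _ _).trans ((congrArg _ a3).trans (m _ a2))⟩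
    exact ⟨μ', _, d0, d1, s0 ▸ cjs c0, by rw [← e, d2, ← c1, ← cjs (rfl : h' • A0.c 1 = _), s1]⟩
  · let K0 : Subgroup G := closure {g | ∃ i < 12, g = E i * E 11}
    have a : ∀ w ∈ all, lprod E w * E 11 ∈ K0 := fun w hw => by
      obtain ⟨i, hi, rfl⟩ := (by decide +kernel : ∀ w ∈ all, ∃ i < 12, w = [i]) w hw
      exact subset_closure ⟨i, hi, by rw [lprod_single]⟩
    have b : E 11 ∈ normalizer (K0 : Set G) := mem_normalizer_fintype fun n hn =>
      (closure_le (K0.comap (MulAut.conj (E 11)).toMonoidHom)).mpr (by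
        rintro _ ⟨i, hi, rfl⟩
        show E 11 * (E i * E 11) * (E 11)⁻¹ ∈ K0
        rw [mul_assoc, mul_inv_cancel_right, ← inv_mem_iff, mul_inv_rev, E_inv, E_inv]
        exact subset_closure ⟨i, hi, rfl⟩) hn
    have c : K0 ≤ K.map S.subtype := (closure_le _).mpr (by
      rintro _ ⟨i, hi, rfl⟩
      obtain rfl | ⟨c, d⟩ := (by decide +kernel : ∀ i < 12, i = 10 ∨ Ok [i, 11] ∧ 0 < 306936 ∧ tr F24a.ap [i, 11] 0 = 0) i hi
      · exact ⟨_, h2, by rw [← lprod_single (E := E) 11]; rfl⟩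
      · exact ⟨ev _ c, h1 (evf d), by rw [← lprod_single (E := E) 11]; rfl⟩)
    have d := (commutator_le_of_gens top (normalizer_eq_top_iff.mp (eq_top_iff.mpr (top.ge.trans (gp_le.mpr fun w hw =>
      (mul_mem_cancel_right b).mp (le_normalizer (a w hw)))))) (E_sq 11) a).trans c
    refine eq_top_iff.mpr fun x _ => ?_
    obtain ⟨z, e, f⟩ := d x.2
    exact Subtype.ext f ▸ e

theorem mult : HasCyclicSchurMultiplier S 3 := by
  obtain ⟨Γ, _, σ, h, ⟨e⟩⟩ := low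
  exact H27.hasSchurMultiplier_of_card_le h e fun Γ _ _ σ h => (up3 Γ σ h).trans (by simp)

end Cfsg.Agent.H15.M24c
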